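import Mathlib

/-!
Sylow 2-subgroups of `GL`, `GU` in dimension `2^k` as iterated wreath products: elements of odd
order normalizing them are scalars.
-/

set_option autoImplicit false
set_option linter.unusedSectionVars false

namespace Cfsg.Agent.Class.Pron

open Subgroup

section Abstract

variable {Γ₁ Γ : Type*} [Group Γ₁] [Group Γ]

structure Good (N : Subgroup Γ) (m : Γ) (R : Subgroup Γ) : Prop where
  pg : IsPGroup 2 R
  m_mem : m ∈ R
  odd : ∀ g n, Odd n → g ^ n = 1 → (∀ a ∈ R, g * a * g⁻¹ ∈ R) → g ∈ center Γ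
  cent : ∀ g, (∀ y ∈ R, y ∈ N → g * y = y * g) → g ∈ center Γ
  nc : ∃ y ∈ R, y ∈ N ∧ y ∉ center Γ

structure WD (N₁ : Subgroup Γ₁) (m : Γ₁) (N : Subgroup Γ) where
  bd : Γ₁ × Γ₁ →* Γ
  s : Γ
  inj : Function.Injective bd
  ss : s * s = 1
  sbd : ∀ a b, s * bd (a, b) = bd (b, a) * s
  ne : ∀ x, s ≠ bd x
  cent : ∀ g, g * bd (1, m) = bd (1, m) * g → ∃ x, g = bd x
  anti_mem : ∀ a, bd (a, a⁻¹) ∈ N
  left_mem : ∀ a ∈ N₁, bd (a, 1) ∈ N
  right_mem : ∀ a ∈ N₁, bd (1, a) ∈ N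
  s_mem : s ∈ N
  diag : ∀ z ∈ center Γ₁, bd (z, z) ∈ center Γ
  m_cent : m ∈ center Γ₁
  m_mem : m ∈ N₁
  m_ne : m ≠ 1
  mm : m * m = 1
  uniq : ∀ z ∈ center Γ₁, z * z = 1 → z = 1 ∨ z = m

theorem eq_one_of_odd {R : Subgroup Γ} (hR : IsPGroup 2 R) {x : Γ} (hx : x ∈ R) {n : ℕ}
    (hn : Odd n) (h : x ^ n = 1) : x = 1 := by
  obtain ⟨k, hk⟩ := hR ⟨x, hx⟩
  exact orderOf_eq_one_iff.1 (Nat.eq_one_of_dvd_coprimes
    ((Nat.coprime_two_right.2 hn).pow_right k) (orderOf_dvd_of_pow_eq_one h)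
    (orderOf_dvd_of_pow_eq_one (congrArg Subtype.val hk)))

theorem comm_of_sq {g t : Γ} {n : ℕ} (hn : Odd n) (h : g ^ n = 1) (h2 : g * g * t = t * (g * g)) :
    g * t = t * g := by
  obtain ⟨k, rfl⟩ := hn
  have : g = (g * g) ^ (k + 1) := by
    rw [← sq, ← pow_mul, show 2 * (k + 1) = 2 * k + 1 + 1 by ring, pow_succ, h, one_mul]
  rw [this]
  exact (Commute.pow_left h2 _).eq

namespace WD

variable {N₁ : Subgroup Γ₁} {m : Γ₁} {N : Subgroup Γ} (w : WD N₁ m N)

/-- transport along an isomorphism -/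
def map {Γ' : Type*} [Group Γ'] (φ : Γ ≃* Γ') {N' : Subgroup Γ'} (h : ∀ g ∈ N, φ g ∈ N') :
    WD N₁ m N' where
  bd := φ.toMonoidHom.comp w.bd
  s := φ w.s
  inj := φ.injective.comp w.inj
  ss := by rw [← map_mul, w.ss, map_one]
  sbd a b := (map_mul φ _ _).symm.trans ((congrArg φ (w.sbd a b)).trans (map_mul φ _ _))
  ne x e := w.ne x (φ.injective e)
  cent g e := by
    obtain ⟨g, rfl⟩ := φ.surjective g
    obtain ⟨x, rfl⟩ := w.cent g (φ.injective ((map_mul φ _ _).trans (e.trans (map_mul φ _ _).symm)))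
    exact ⟨x, rfl⟩
  anti_mem a := h _ (w.anti_mem a)
  left_mem a ha := h _ (w.left_mem a ha)
  right_mem a ha := h _ (w.right_mem a ha)
  s_mem := h _ w.s_mem
  diag z hz := mem_center_iff.2 fun g => by
    obtain ⟨g, rfl⟩ := φ.surjective g
    exact (map_mul φ _ _).symm.trans
      ((congrArg φ (mem_center_iff.1 (w.diag z hz) g)).trans (map_mul φ _ _))
  m_cent := w.m_cent
  m_mem := w.m_mem
  m_ne := w.m_ne
  mm := w.mm
  uniq := w.uniq

theorem s_inv : w.s⁻¹ = w.s := inv_eq_of_mul_eq_one_right w.ss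

theorem bd_mul (a b c d : Γ₁) : w.bd (a, b) * w.bd (c, d) = w.bd (a * c, b * d) :=
  (map_mul _ _ _).symm

theorem bd_inv (a b : Γ₁) : (w.bd (a, b))⁻¹ = w.bd (a⁻¹, b⁻¹) := (map_inv _ _).symm

theorem bd_eq {a b c d : Γ₁} : w.bd (a, b) = w.bd (c, d) ↔ a = c ∧ b = d := by
  rw [w.inj.eq_iff, Prod.mk.injEq]

theorem s_mul (a b : Γ₁) (g : Γ) : w.s * (w.bd (a, b) * g) = w.bd (b, a) * (w.s * g) := by
  rw [← mul_assoc, w.sbd, mul_assoc]

theorem bd_mul' (a b c d : Γ₁) (g : Γ) :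
    w.bd (a, b) * (w.bd (c, d) * g) = w.bd (a * c, b * d) * g := by
  rw [← mul_assoc, w.bd_mul]

theorem mul_s_ne (x y : Γ₁ × Γ₁) : w.bd x * w.s ≠ w.bd y := fun e =>
  w.ne (x⁻¹ * y) (by rw [map_mul, ← e, map_inv, inv_mul_cancel_left])

/-- the wreath product of `R` with `C₂` -/
def W (R : Subgroup Γ₁) : Subgroup Γ where
  carrier := {g | ∃ a ∈ R, ∃ b ∈ R, g = w.bd (a, b) ∨ g = w.bd (a, b) * w.s}
  one_mem' := ⟨1, one_mem _, 1, one_mem _, Or.inl (map_one _).symm⟩
  mul_mem' := by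
    rintro _ _ ⟨a, ha, b, hb, rfl | rfl⟩ ⟨c, hc, d, hd, rfl | rfl⟩
    · exact ⟨_, mul_mem ha hc, _, mul_mem hb hd, Or.inl (w.bd_mul ..)⟩
    · exact ⟨_, mul_mem ha hc, _, mul_mem hb hd, Or.inr (w.bd_mul' ..)⟩
    · exact ⟨_, mul_mem ha hd, _, mul_mem hb hc, Or.inr (by rw [mul_assoc, w.sbd, w.bd_mul'])⟩
    · exact ⟨_, mul_mem ha hd, _, mul_mem hb hc, Or.inl (by
        rw [mul_assoc, w.s_mul, w.ss, mul_one, w.bd_mul])⟩
  inv_mem' := by
    rintro _ ⟨a, ha, b, hb, rfl | rfl⟩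
    · exact ⟨_, inv_mem ha, _, inv_mem hb, Or.inl (w.bd_inv ..)⟩
    · exact ⟨_, inv_mem hb, _, inv_mem ha, Or.inr (by rw [mul_inv_rev, w.bd_inv, w.s_inv, w.sbd])⟩

variable {R : Subgroup Γ₁}

theorem bd_mem {a b : Γ₁} : w.bd (a, b) ∈ w.W R ↔ a ∈ R ∧ b ∈ R := by
  refine ⟨?_, fun h => ⟨a, h.1, b, h.2, Or.inl rfl⟩⟩
  rintro ⟨c, hc, d, hd, e | e⟩
  · obtain ⟨rfl, rfl⟩ := w.bd_eq.1 e
    exact ⟨hc, hd⟩
  · exact absurd e.symm (w.mul_s_ne _ _)

theorem s_mem_W : w.s ∈ w.W R :=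
  ⟨1, one_mem _, 1, one_mem _, Or.inr (by rw [show ((1, 1) : Γ₁ × Γ₁) = 1 from rfl]; simp)⟩

theorem W_le {K : Subgroup Γ} (h : ∀ a ∈ R, ∀ b ∈ R, w.bd (a, b) ∈ K) (hs : w.s ∈ K) :
    w.W R ≤ K := by
  rintro _ ⟨a, ha, b, hb, rfl | rfl⟩
  exacts [h a ha b hb, mul_mem (h a ha b hb) hs]

theorem card_W : Nat.card (w.W R) = 2 * Nat.card R ^ 2 := by
  let f : (R × R) ⊕ (R × R) → w.W R := Sum.elim
    (fun x => ⟨w.bd (x.1, x.2), w.bd_mem.2 ⟨x.1.2, x.2.2⟩⟩)
    (fun x => ⟨w.bd (x.1, x.2) * w.s, mul_mem (w.bd_mem.2 ⟨x.1.2, x.2.2⟩) w.s_mem_W⟩)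
  have hf : Function.Bijective f := by
    constructor
    · rintro (x | x) (y | y) e <;> have e' := congrArg Subtype.val e
      · obtain ⟨h1, h2⟩ := w.bd_eq.1 e'
        exact congrArg _ (Prod.ext (Subtype.ext h1) (Subtype.ext h2))
      · exact absurd e'.symm (w.mul_s_ne _ _)
      · exact absurd e' (w.mul_s_ne _ _)
      · obtain ⟨h1, h2⟩ := w.bd_eq.1 (mul_right_cancel e')
        exact congrArg _ (Prod.ext (Subtype.ext h1) (Subtype.ext h2))
    · rintro ⟨_, a, ha, b, hb, rfl | rfl⟩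
      exacts [⟨.inl (⟨a, ha⟩, ⟨b, hb⟩), rfl⟩, ⟨.inr (⟨a, ha⟩, ⟨b, hb⟩), rfl⟩]
  by_cases hR : Finite R
  · rw [← Nat.card_eq_of_bijective f hf, Nat.card_sum, Nat.card_prod]; ring
  · rw [not_finite_iff_infinite] at hR
    rw [← Nat.card_eq_of_bijective f hf, Nat.card_eq_zero_of_infinite (α := R),
      Nat.card_eq_zero_of_infinite]
    simp

theorem t_not_mem : w.bd (1, m) ∉ center Γ := fun h => by
  have := mem_center_iff.1 h w.s
  rw [w.sbd, mul_left_inj, w.bd_eq] at this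
  exact w.m_ne this.1

variable [Finite Γ₁] (h : Good N₁ m R)
include h

theorem isPGroup_W : IsPGroup 2 (w.W R) := by
  obtain ⟨k, hk⟩ := h.pg.exists_card_eq
  exact IsPGroup.of_card (n := 2 * k + 1) (by rw [w.card_W, hk]; ring)

theorem conj_t {u : Γ} (hu : u ∈ w.W R) (h2 : u * u = 1) (h1 : u ∉ center Γ)
    (hc : ∀ y ∈ w.W R, y ∈ N → y * u = u * y ∨ y * u = u * y * w.bd (m, m)) :
    u = w.bd (1, m) ∨ u = w.bd (m, 1) := by
  obtain ⟨a, ha, b, hb, rfl | rfl⟩ := hu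
  · rw [w.bd_mul, ← map_one w.bd, w.inj.eq_iff, Prod.mk_eq_one] at h2
    have a1 : a ∈ center Γ₁ := h.cent a fun y hy hyN => by
      rcases hc _ (w.bd_mem.2 ⟨hy, one_mem _⟩) (w.left_mem y hyN) with e | e <;>
        simp only [w.bd_mul, w.bd_eq] at e
      · exact e.1.symm
      · exact absurd (by simpa using e.2) w.m_ne
    have a2 : b ∈ center Γ₁ := h.cent b fun y hy hyN => by
      rcases hc _ (w.bd_mem.2 ⟨one_mem _, hy⟩) (w.right_mem y hyN) with e | e <;>
        simp only [w.bd_mul, w.bd_eq] at e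
      · exact e.2.symm
      · exact absurd (by simpa using e.1) w.m_ne
    rcases w.uniq a a1 h2.1 with rfl | rfl <;> rcases w.uniq b a2 h2.2 with rfl | rfl
    · exact absurd (w.diag _ a1) h1
    · exact Or.inl rfl
    · exact Or.inr rfl
    · exact absurd (w.diag _ a1) h1
  · exfalso
    obtain ⟨y, hy, hyN, hy1⟩ := h.nc
    rcases hc _ (w.bd_mem.2 ⟨hy, one_mem _⟩) (w.left_mem y hyN) with e | e <;>
      simp only [mul_assoc, w.bd_mul, w.bd_mul', w.sbd, mul_left_inj, w.bd_eq] at e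
    · have : y = 1 := by simpa using e.1
      exact hy1 (this ▸ one_mem _)
    · have : y = m := by
        have := e.1
        rwa [one_mul, mem_center_iff.1 w.m_cent a, mul_left_inj] at this
      exact hy1 (this ▸ w.m_cent)

theorem odd_W [hN : N.Normal] {g : Γ} {n : ℕ} (hn : Odd n) (hg : g ^ n = 1)
    (hc : ∀ a ∈ w.W R, a ∈ N → g * a * g⁻¹ ∈ w.W R) : g ∈ center Γ := by
  have : Finite (w.W R) := Nat.finite_of_card_ne_zero (by
    rw [w.card_W]; exact mul_ne_zero two_ne_zero (pow_ne_zero _ Nat.card_pos.ne'))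
  have hg' : g ∈ normalizer ((w.W R ⊓ N : Subgroup Γ) : Set Γ) := by
    have : Finite (w.W R ⊓ N : Subgroup Γ) :=
      Finite.of_injective _ (inclusion_injective inf_le_left)
    exact mem_normalizer_fintype fun a ha => ⟨hc a ha.1 ha.2, hN.conj_mem a ha.2 g⟩
  have ht : w.bd (1, m) ∈ w.W R := w.bd_mem.2 ⟨one_mem _, h.m_mem⟩
  have hm := mem_center_iff.1 (w.diag m w.m_cent)
  have h1 : g * w.bd (1, m) = w.bd (1, m) * g := by
    refine comm_of_sq hn hg ?_
    rcases w.conj_t h (hc _ ht (w.right_mem m w.m_mem))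
      (by rw [conj_mul, w.bd_mul, w.mm, mul_one, show ((1, 1) : Γ₁ × Γ₁) = 1 from rfl]; simp)
      (fun e => w.t_not_mem (by simpa [mul_assoc] using Normal.conj_mem inferInstance _ e g⁻¹))
      (fun y hy hyN => by
        obtain ⟨⟨a, ha, b, hb, e | e⟩, -⟩ :=
          (mem_normalizer_iff.1 (inv_mem hg') y).1 (show y ∈ w.W R ⊓ N from ⟨hy, hyN⟩)
        · left
          have : g⁻¹ * y * g⁻¹⁻¹ * w.bd (1, m) = w.bd (1, m) * (g⁻¹ * y * g⁻¹⁻¹) := by
            rw [e, w.bd_mul, w.bd_mul, mem_center_iff.1 w.m_cent b]; simp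
          calc _ = g * (g⁻¹ * y * g⁻¹⁻¹ * w.bd (1, m)) * g⁻¹ := by group
            _ = _ := by rw [this]; group
        · right
          have : g⁻¹ * y * g⁻¹⁻¹ * w.bd (1, m) =
              w.bd (1, m) * (g⁻¹ * y * g⁻¹⁻¹) * w.bd (m, m) := by
            rw [e]
            simp only [mul_assoc, w.bd_mul', w.sbd, mul_left_inj, w.bd_eq]
            rw [mem_center_iff.1 w.m_cent b, ← mul_assoc m, w.mm]
            simp
          calc _ = g * (g⁻¹ * y * g⁻¹⁻¹ * w.bd (1, m)) * g⁻¹ := by group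
            _ = _ := by rw [this, mul_assoc, mul_assoc _ (w.bd (m, m)), ← hm]; group) with e | e
    · rw [mul_inv_eq_iff_eq_mul] at e
      rw [mul_assoc, e, ← mul_assoc, e, mul_assoc]
    · have e1 : w.bd (m, 1) = w.bd (1, m) * w.bd (m, m) := by rw [w.bd_mul, w.mm, one_mul]
      have e2 : w.bd (m, m) * w.bd (m, m) = 1 := by rw [w.bd_mul, w.mm]; exact map_one _
      rw [mul_inv_eq_iff_eq_mul, e1] at e
      calc g * g * w.bd (1, m) = g * w.bd (1, m) * (w.bd (m, m) * g) := by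
            conv_lhs => rw [mul_assoc, e]
            group
        _ = w.bd (1, m) * (w.bd (m, m) * (g * w.bd (m, m))) * g := by rw [e]; group
        _ = _ := by rw [hm g, ← mul_assoc (w.bd (m, m)), e2]; group
  obtain ⟨⟨a, b⟩, rfl⟩ := w.cent g h1
  rw [← map_pow, ← map_one w.bd, w.inj.eq_iff, Prod.pow_mk, Prod.mk_eq_one] at hg
  have key : ∀ y ∈ R, a * y * a⁻¹ ∈ R ∧ b * y⁻¹ * b⁻¹ ∈ R := fun y hy => by
    have := hc _ (w.bd_mem.2 ⟨hy, inv_mem hy⟩) (w.anti_mem y)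
    rwa [w.bd_inv, w.bd_mul, w.bd_mul, w.bd_mem] at this
  have a1 := h.odd a n hn hg.1 fun y hy => (key y hy).1
  have a2 := h.odd b n hn hg.2 fun y hy => by simpa using (key _ (inv_mem hy)).2
  have := mul_mem (hc _ w.s_mem_W w.s_mem) w.s_mem_W
  rw [w.bd_inv, mul_assoc, mul_assoc, w.s_mul, w.ss, mul_one, w.bd_mul, w.bd_mem] at this
  have := eq_one_of_odd h.pg this.1 hn (by
    rw [Commute.mul_pow (mem_center_iff.1 a1 _).symm, inv_pow, hg.1, hg.2]; simp)
  rw [mul_inv_eq_one] at this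
  subst this
  exact w.diag _ a1

theorem good_W [N.Normal] : Good N (w.bd (m, m)) (w.W R) where
  pg := w.isPGroup_W h
  m_mem := w.bd_mem.2 ⟨h.m_mem, h.m_mem⟩
  odd _ _ hn hg hc := w.odd_W h hn hg fun a ha _ => hc a ha
  cent g hg := by
    obtain ⟨⟨a, b⟩, rfl⟩ := w.cent g
      (hg _ (w.bd_mem.2 ⟨one_mem _, h.m_mem⟩) (w.right_mem m w.m_mem))
    have a1 := h.cent a fun y hy hyN => by
      have := hg _ (w.bd_mem.2 ⟨hy, one_mem _⟩) (w.left_mem y hyN)
      rw [w.bd_mul, w.bd_mul, w.bd_eq] at this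
      exact this.1
    have := hg _ w.s_mem_W w.s_mem
    rw [w.sbd, mul_left_inj, w.bd_eq] at this
    rw [← this.1]
    exact w.diag _ a1
  nc := ⟨_, w.bd_mem.2 ⟨one_mem _, h.m_mem⟩, w.right_mem m w.m_mem, w.t_not_mem⟩

end WD

end Abstract

section Mat

open Matrix

variable {F : Type*} [Field F] {ι κ : Type*} [Fintype ι] [DecidableEq ι] [Fintype κ] [DecidableEq κ]

/-- the kernel of the determinant -/
abbrev SLk (ι F : Type*) [Field F] [Fintype ι] [DecidableEq ι] : Subgroup (GL ι F) :=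
  (GeneralLinearGroup.det : GL ι F →* Fˣ).ker

theorem mem_SLk {g : GL ι F} : g ∈ SLk ι F ↔ (g : Matrix ι ι F).det = 1 := by
  rw [MonoidHom.mem_ker, Units.ext_iff]; rfl

theorem mem_center {g : GL ι F} :
    g ∈ center (GL ι F) ↔ ∃ c : F, (g : Matrix ι ι F) = c • (1 : Matrix ι ι F) := by
  rw [GeneralLinearGroup.mem_center_iff_val_mem_range_scalar]
  simp only [Set.mem_range, scalar_apply, smul_one_eq_diagonal, eq_comm]

/-- block diagonal matrices -/
def bdm (ι F : Type*) [Field F] [Fintype ι] [DecidableEq ι] :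
    GL ι F × GL ι F →* GL (ι ⊕ ι) F where
  toFun x := ⟨fromBlocks x.1 0 0 x.2, fromBlocks (x.1⁻¹ : GL ι F) 0 0 (x.2⁻¹ : GL ι F),
    by simp [fromBlocks_multiply], by simp [fromBlocks_multiply]⟩
  map_one' := Units.ext (by simp)
  map_mul' x y := Units.ext (by simp [fromBlocks_multiply])

theorem bdm_coe (a b : GL ι F) :
    (bdm ι F (a, b) : Matrix (ι ⊕ ι) (ι ⊕ ι) F) = fromBlocks a.1 0 0 b.1 := rfl

/-- the swap of the two blocks -/
def swm (ι F : Type*) [Field F] [Fintype ι] [DecidableEq ι] : GL (ι ⊕ ι) F :=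
  ⟨fromBlocks 0 1 1 0, fromBlocks 0 1 1 0, by simp [fromBlocks_multiply],
    by simp [fromBlocks_multiply]⟩

theorem swm_coe : (swm ι F : Matrix (ι ⊕ ι) (ι ⊕ ι) F) = fromBlocks 0 1 1 0 := rfl

theorem det_swm (h : Even (Fintype.card ι)) : (swm ι F : Matrix (ι ⊕ ι) (ι ⊕ ι) F).det = 1 := by
  have : (swm ι F : Matrix (ι ⊕ ι) (ι ⊕ ι) F) =
      fromBlocks 1 1 0 1 * fromBlocks 1 0 (-1) 1 * fromBlocks 1 1 0 1 * fromBlocks (-1) 0 0 1 := by
    simp [swm_coe, fromBlocks_multiply]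
  rw [this]
  simp [det_neg, h.neg_one_pow]

/-- the wreath datum of block matrices -/
def wd [Nonempty ι] (h2 : (2 : F) ≠ 0) (h : Even (Fintype.card ι)) :
    WD (SLk ι F) (-1) (SLk (ι ⊕ ι) F) where
  bd := bdm ι F
  s := swm ι F
  inj x y e := by
    have := fromBlocks_inj.1 (congrArg Units.val e)
    exact Prod.ext (Units.ext this.1) (Units.ext this.2.2.2)
  ss := Units.ext (swm ι F).val_inv
  sbd a b := Units.ext (by simp [swm_coe, bdm_coe, fromBlocks_multiply])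
  ne x e := one_ne_zero (fromBlocks_inj.1 (congrArg Units.val e)).2.1
  cent g e := by
    have e' := congrArg Units.val e
    have hd := g.det_ne_zero
    rw [Units.val_mul, Units.val_mul, bdm_coe] at e'
    rw [← fromBlocks_toBlocks g.1] at e' hd
    simp only [fromBlocks_multiply, fromBlocks_inj, Units.val_one, Units.val_neg, Matrix.mul_one,
      Matrix.mul_zero, add_zero, zero_add, Matrix.one_mul, Matrix.zero_mul, Matrix.mul_neg,
      Matrix.neg_mul] at e'
    have key : ∀ A : Matrix ι ι F, -A = A → A = 0 := fun A hA => by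
      ext i j
      have := congrFun (congrFun hA i) j
      rw [Matrix.neg_apply] at this
      exact (mul_eq_zero.1 (show 2 * A i j = 0 by linear_combination -this)).resolve_left h2
    have h1 := key _ e'.2.1
    have h3 := key _ e'.2.2.1.symm
    rw [h1, h3, det_fromBlocks_zero₂₁] at hd
    refine ⟨(GeneralLinearGroup.mkOfDetNeZero _ (left_ne_zero_of_mul hd),
      GeneralLinearGroup.mkOfDetNeZero _ (right_ne_zero_of_mul hd)), Units.ext ?_⟩
    exact (fromBlocks_toBlocks g.1).symm.trans (by rw [h1, h3]; rfl)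
  anti_mem a := by
    rw [mem_SLk, bdm_coe, det_fromBlocks_zero₂₁, ← det_mul, Units.mul_inv, det_one]
  left_mem a ha := by
    rw [mem_SLk, bdm_coe, det_fromBlocks_zero₂₁, mem_SLk.1 ha]; simp
  right_mem a ha := by
    rw [mem_SLk, bdm_coe, det_fromBlocks_zero₂₁, mem_SLk.1 ha]; simp
  s_mem := mem_SLk.2 (det_swm h)
  diag z hz := by
    obtain ⟨c, hc⟩ := mem_center.1 hz
    refine mem_center.2 ⟨c, ?_⟩
    rw [bdm_coe, hc, ← fromBlocks_one, fromBlocks_smul]; simp
  m_cent := mem_center.2 ⟨-1, by simp⟩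
  m_mem := mem_SLk.2 (by simp [det_neg, h.neg_one_pow])
  m_ne e := by
    obtain ⟨i⟩ := ‹Nonempty ι›
    have := congrArg (fun g : GL ι F => (g : Matrix ι ι F) i i) e
    simp only [Units.val_neg, Units.val_one, Matrix.neg_apply, one_apply_eq] at this
    exact h2 (by linear_combination -this)
  mm := by simp
  uniq z hz e := by
    obtain ⟨i⟩ := ‹Nonempty ι›
    obtain ⟨c, hc⟩ := mem_center.1 hz
    have := congrArg (fun g : GL ι F => (g : Matrix ι ι F) i i) e
    simp only [Units.val_mul, hc, smul_mul_smul_comm, Matrix.mul_one, Matrix.smul_apply,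
      one_apply_eq, Units.val_one, smul_eq_mul, mul_one] at this
    rcases mul_self_eq_one_iff.1 this with rfl | rfl
    · exact Or.inl (Units.ext (by simpa using hc))
    · exact Or.inr (Units.ext (by simpa using hc))

/-- reindexing -/
def rx (F : Type*) [Field F] (e : ι ≃ κ) : GL ι F ≃* GL κ F :=
  Units.mapEquiv (reindexAlgEquiv F F e).toMulEquiv

theorem rx_coe (e : ι ≃ κ) (g : GL ι F) :
    (rx F e g : Matrix κ κ F) = (g : Matrix ι ι F).submatrix e.symm e.symm := rfl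

/-- the wreath datum after reindexing -/
def wd' [Nonempty ι] (h2 : (2 : F) ≠ 0) (h : Even (Fintype.card ι)) (e : ι ⊕ ι ≃ κ) :
    WD (SLk ι F) (-1) (SLk κ F) :=
  (wd h2 h).map (rx F e) fun g hg => by
    rw [mem_SLk, rx_coe, det_submatrix_equiv_self, mem_SLk.1 hg]

theorem wd'_m [Nonempty ι] (h2 : (2 : F) ≠ 0) (h : Even (Fintype.card ι)) (e : ι ⊕ ι ≃ κ) :
    (wd' h2 h e).bd (-1, -1) = -1 := by
  refine Units.ext ?_
  change (fromBlocks (-1 : Matrix ι ι F) 0 0 (-1 : Matrix ι ι F)).submatrix e.symm e.symm = -1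
  rw [show fromBlocks (-1 : Matrix ι ι F) 0 0 (-1 : Matrix ι ι F) = -1 by
    rw [← fromBlocks_one, fromBlocks_neg]; simp]
  simp [submatrix_neg]

/-! dimension two -/

local notation "M₂" => Matrix (Fin 2) (Fin 2) F

theorem exists_eq_of_comm {A B : M₂} (hB : ¬ ∃ c : F, B = c • (1 : M₂)) (h : A * B = B * A) :
    ∃ a b : F, A = a • (1 : M₂) + b • B := by
  have e := fun i j => congrFun (congrFun h i) j
  have e1 := e 0 0
  have e2 := e 0 1
  have e3 := e 1 0
  simp only [mul_apply, Fin.sum_univ_two] at e1 e2 e3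
  by_cases h1 : B 0 1 = 0
  · by_cases h2 : B 1 0 = 0
    · have h3 : B 0 0 - B 1 1 ≠ 0 := fun h3 => hB ⟨B 0 0, by
        ext i j; fin_cases i <;> fin_cases j <;> simp [h1, h2, (sub_eq_zero.1 h3).symm]⟩
      refine ⟨A 0 0 - (A 0 0 - A 1 1) / (B 0 0 - B 1 1) * B 0 0,
        (A 0 0 - A 1 1) / (B 0 0 - B 1 1), ?_⟩
      rw [h1] at e2
      rw [h2] at e3
      ext i j; fin_cases i <;> fin_cases j <;> simp [h1, h2]
      · exact (mul_eq_zero.1 (show A 0 1 * (B 0 0 - B 1 1) = 0 by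
          linear_combination -e2)).resolve_right h3
      · exact (mul_eq_zero.1 (show A 1 0 * (B 0 0 - B 1 1) = 0 by
          linear_combination e3)).resolve_right h3
      · field_simp; ring
    · refine ⟨A 0 0 - A 1 0 / B 1 0 * B 0 0, A 1 0 / B 1 0, ?_⟩
      ext i j; fin_cases i <;> fin_cases j <;> simp <;> field_simp
      · linear_combination e1
      · linear_combination e3
  · refine ⟨A 0 0 - A 0 1 / B 0 1 * B 0 0, A 0 1 / B 0 1, ?_⟩
    ext i j; fin_cases i <;> fin_cases j <;> simp <;> field_simp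
    · linear_combination -e1
    · linear_combination -e2

theorem comm_trans {a b c : GL (Fin 2) F} (hb : b ∉ center (GL (Fin 2) F)) (h1 : a * b = b * a)
    (h2 : c * b = b * c) : a * c = c * a := by
  rw [mem_center] at hb
  obtain ⟨x, y, e1⟩ := exists_eq_of_comm hb (congrArg Units.val h1)
  obtain ⟨z, t, e2⟩ := exists_eq_of_comm hb (congrArg Units.val h2)
  refine Units.ext ?_
  rw [Units.val_mul, Units.val_mul, e1, e2]
  simp only [add_mul, mul_add, smul_mul_smul_comm, Matrix.mul_one, Matrix.one_mul, mul_comm]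
  abel

theorem sq_mem_center_iff {a : GL (Fin 2) F} (ha : a ∉ center (GL (Fin 2) F)) :
    a * a ∈ center (GL (Fin 2) F) ↔ (a : M₂).trace = 0 := by
  have e : (a : M₂) * a = (a : M₂).trace • (a : M₂) - (a : M₂).det • (1 : M₂) := by
    ext i j; fin_cases i <;> fin_cases j <;> simp [mul_apply, trace_fin_two, det_fin_two] <;> ring
  rw [mem_center, Units.val_mul, e]
  refine ⟨fun ⟨c, hc⟩ => by_contra fun h => ha (mem_center.2 ⟨(c + (a : M₂).det) / (a : M₂).trace,
    ?_⟩), fun h => ⟨-(a : M₂).det, by simp [h]⟩⟩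
  rw [sub_eq_iff_eq_add, ← add_smul] at hc
  rw [div_eq_inv_mul, mul_smul, ← hc, smul_smul, inv_mul_cancel₀ h, one_smul]

theorem good_two (h2 : (2 : F) ≠ 0) {R : Subgroup (GL (Fin 2) F)} [Finite R] (hR : IsPGroup 2 R)
    (hm : -1 ∈ R) {x : GL (Fin 2) F} (hx : x ∈ R) (hx2 : x * x ∉ center (GL (Fin 2) F))
    {a b : GL (Fin 2) F} (ha : a ∈ R) (hb : b ∈ R) (ha' : a ∈ SLk (Fin 2) F)
    (hb' : b ∈ SLk (Fin 2) F) (hab : a * b ≠ b * a) : Good (SLk (Fin 2) F) (-1) R := by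
  have cent : ∀ g, g * a = a * g → g * b = b * g → g ∈ center (GL (Fin 2) F) := fun g e1 e2 =>
    by_contra fun hg => hab (comm_trans hg e1.symm e2.symm)
  have ha1 : a ∉ center (GL (Fin 2) F) := fun h => hab (mem_center_iff.1 h b).symm
  refine ⟨hR, hm, fun g n hn hg hc => ?_, fun g hg => cent g (hg a ha ha') (hg b hb hb'),
    a, ha, ha', ha1⟩
  set π := QuotientGroup.mk' (center (GL (Fin 2) F))
  obtain ⟨z, hz, hz1, hz2, hz3⟩ : ∃ z ∈ R, z ∉ center (GL (Fin 2) F) ∧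
      z * z ∈ center (GL (Fin 2) F) ∧ ∀ y ∈ R, y * z * y⁻¹ * z⁻¹ ∈ center (GL (Fin 2) F) := by
    have hp := hR.map π
    have : Finite (R.map π) := Finite.of_surjective _ (π.subgroupMap_surjective R)
    have : Nontrivial (R.map π) := ⟨⟨⟨π a, mem_map_of_mem π ha⟩, 1, fun e =>
      ha1 ((QuotientGroup.eq_one_iff a).1 (congrArg Subtype.val e))⟩⟩
    have := hp.center_nontrivial
    obtain ⟨k, hk0, hk⟩ := (hp.to_subgroup (center _)).nontrivial_iff_card.1 this
    obtain ⟨⟨⟨_, z, hzR, rfl⟩, hc⟩, hz⟩ := exists_prime_orderOf_dvd_card'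
      (G := center (R.map π)) 2 (hk ▸ dvd_pow_self 2 hk0.ne')
    rw [← orderOf_coe, ← orderOf_coe] at hz
    change orderOf (π z) = 2 at hz
    refine ⟨z, hzR, fun h => ?_, ?_, fun y hy => ?_⟩
    · rw [show π z = 1 from (QuotientGroup.eq_one_iff z).2 h] at hz
      simp at hz
    · refine (QuotientGroup.eq_one_iff _).1 (show π (z * z) = 1 from ?_)
      rw [map_mul, ← sq]
      exact orderOf_dvd_iff_pow_eq_one.1 hz.dvd
    · refine (QuotientGroup.eq_one_iff _).1 (show π _ = 1 from ?_)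
      have : π y * π z = π z * π y :=
        congrArg Subtype.val (mem_center_iff.1 hc ⟨π y, mem_map_of_mem π hy⟩)
      rw [map_mul, map_mul, map_mul, this, map_inv, map_inv]; group
  have htr := (sq_mem_center_iff hz1).1 hz2
  -- elements with non-central square commute with `z`
  have key : ∀ y ∈ R, y * y ∉ center (GL (Fin 2) F) → y * z = z * y := fun y hy hy2 => by
    obtain ⟨c, hc⟩ := mem_center.1 (hz3 y hy)
    have hy1 : y ∉ center (GL (Fin 2) F) := fun h => hy2 (mul_mem h h)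
    have e : (y : M₂) = c • ((z * y * z⁻¹ : GL (Fin 2) F) : M₂) := by
      rw [← Matrix.one_mul ((z * y * z⁻¹ : GL (Fin 2) F) : M₂), ← Matrix.smul_mul, ← hc,
        ← Units.val_mul]
      congr 1; group
    have e2 := congrArg trace e
    rw [trace_smul, Units.val_mul, Units.val_mul, trace_units_conj, smul_eq_mul] at e2
    have hc1 : c = 1 := by
      refine mul_right_cancel₀ (mt (sq_mem_center_iff hy1).2 hy2) ?_
      rw [← e2, one_mul]
    rw [hc1, one_smul] at e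
    exact eq_mul_inv_iff_mul_eq.1 (Units.ext e)
  have conj : ∀ u y : GL (Fin 2) F, u * y * u⁻¹ ∈ center (GL (Fin 2) F) →
      y ∈ center (GL (Fin 2) F) := fun u y h => by
    simpa [mul_assoc] using Normal.conj_mem inferInstance _ h u⁻¹
  have pm : ∀ u : GL (Fin 2) F, u * z * u⁻¹ * z = z * (u * z * u⁻¹) → u * u * z = z * (u * u) ∧
      ∀ y, y * z = z * y → u * y * u⁻¹ * z = z * (u * y * u⁻¹) := fun u hu => by
    refine ⟨?_, fun y hy => comm_trans (mt (conj u z) hz1) (by rw [conj_mul, conj_mul, hy]) hu.symm⟩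
    obtain ⟨c, d, e⟩ := exists_eq_of_comm (mt mem_center.2 hz1) (congrArg Units.val hu)
    have e2 := congrArg trace e
    rw [trace_add, trace_smul, trace_smul, Units.val_mul, Units.val_mul, trace_units_conj, htr,
      trace_one] at e2
    have hc : c = 0 := by simpa [h2] using e2
    rw [hc, zero_smul, zero_add] at e
    have e3 := congrArg det e
    rw [det_smul, Units.val_mul, Units.val_mul, det_units_conj, Fintype.card_fin] at e3
    have hd : d * d = 1 := mul_right_cancel₀ z.det_ne_zero (by rw [one_mul, ← sq]; exact e3.symm)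
    rw [← mul_inv_eq_iff_eq_mul, show u * u * z * (u * u)⁻¹ = u * (u * z * u⁻¹) * u⁻¹ by group]
    refine Units.ext ?_
    rw [Units.val_mul, Units.val_mul, e, Matrix.mul_smul, Matrix.smul_mul, ← Units.val_mul,
      ← Units.val_mul, e, smul_smul, hd, one_smul]
  have hx1 : x ∉ center (GL (Fin 2) F) := fun h => hx2 (mul_mem h h)
  have hgz : g * z = z * g := comm_of_sq hn hg (pm g (comm_trans (b := g * x * g⁻¹)
    (mt (conj g x) hx1) (by rw [conj_mul, conj_mul, key x hx hx2])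
    (key _ (hc x hx) (by rw [conj_mul]; exact mt (conj g _) hx2)).symm)).1
  have fin : ∀ y ∈ R, g * y = y * g := fun y hy => by
    have h1 : y * z * y⁻¹ * z = z * (y * z * y⁻¹) := by
      have := mem_center_iff.1 (hz3 y hy) z
      calc _ = y * z * y⁻¹ * z⁻¹ * z * z := by group
        _ = _ := by rw [← this]; group
    have h3 := comm_trans hz1 hgz ((pm y h1).2 g⁻¹ (Commute.inv_left hgz).eq)
    have := eq_one_of_odd hR (x := g * (y * g⁻¹ * y⁻¹))
      (by simpa [mul_assoc] using mul_mem (hc y hy) (inv_mem hy)) hn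
      (by rw [Commute.mul_pow h3, conj_pow, inv_pow, hg]; simp)
    calc g * y = g * (y * g⁻¹ * y⁻¹) * (y * g) := by group
      _ = _ := by rw [this, one_mul]
  exact cent g (fin a ha) (fin b hb)

end Mat

end Cfsg.Agent.Class.Pron
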