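import Mathlib
import Cfsg.Agent.Class.Pron.Basic
import Cfsg.Agent.Class.Pron.Wreath
import Cfsg.Agent.Class.Wr.Val
import Cfsg.Agent.Class.Wr.Basic
import Cfsg.Agent.KSG.SplitSpSU
import Cfsg.Agent.Class.U.Count
import Cfsg.Agent.Class.U.SU2

/-!
Normalizers of Sylow 2-subgroups in `SL` and `SU` of dimension `2^k`.
-/

set_option autoImplicit false
set_option linter.unusedSectionVars false

namespace Cfsg.Agent.Class.Pron

open Subgroup Matrix Cfsg Cfsg.Agent.Class.Wr Cfsg.Agent.KSG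

variable {F : Type*} [Field F] [Finite F]

theorem ovN_of_vgood {Γ G : Type*} [Group Γ] [Finite Γ] [Group G] {K N R : Subgroup Γ}
    [hN : N.Normal] (h1 : R ≤ K) (h4 : Nat.card R = 2 ^ padicValNat 2 (Nat.card K))
    (h5 : ∀ g n, Odd n → g ^ n = 1 → (∀ a ∈ R, a ∈ N → g * a * g⁻¹ ∈ R) → g ∈ center Γ)
    (j : G →* K) (hj : Function.Injective j) (hr : ∀ a : K, a.1 ∈ N → a ∈ j.range) :
    OvN 2 (center G) := by
  have : Finite G := Finite.of_injective j hj
  obtain ⟨S⟩ : Nonempty (Sylow 2 G) := inferInstance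
  refine OvN.of_odd S fun g hg n hn hgn => ?_
  obtain ⟨Q, hQ⟩ := S.exists_comap_eq_of_injective hj
  have hR : IsSyl 2 (R.subgroupOf K) :=
    (Nat.card_congr (subgroupOfEquivOfLe h1).toEquiv).trans h4
  obtain ⟨c, rfl⟩ := MulAction.exists_smul_eq K hR.toSylow Q
  have hm : ∀ y : G, y ∈ (S : Subgroup G) ↔ (c⁻¹ * j y * c).1 ∈ R := fun y => by
    rw [← hQ, mem_comap, Sylow.coe_subgroup_smul, mem_pointwise_smul_iff_inv_smul_mem,
      hR.coe_toSylow, mem_subgroupOf]
    simp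
  have := h5 (c⁻¹ * j g * c).1 n hn (by
    rw [← SubmonoidClass.coe_pow, ← inv_inv c, inv_inv c⁻¹, conj_pow, ← map_pow, hgn]; simp)
    fun a ha haN => by
      obtain ⟨y, hy⟩ := hr (c * ⟨a, h1 ha⟩ * c⁻¹) (hN.conj_mem _ haN _)
      have := (hm _).1 ((mem_normalizer_iff.1 hg y).1 ((hm y).2 (by simpa [hy, mul_assoc] using ha)))
      simpa [hy, mul_assoc] using this
  refine mem_center_iff.2 fun y => hj (Subtype.ext ?_)
  have h6 : (j g).1 ∈ center Γ := by
    simpa [mul_assoc] using Normal.conj_mem inferInstance _ this c.1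
  simpa using mem_center_iff.1 h6 (j y).1

section Odd

variable (h2 : (2 : F) ≠ 0) (K : ∀ n, Subgroup (GL (Fin n) F))
include h2

theorem exists_good_two (hm : -1 ∈ K 2) {l : F} (hl : l ≠ 0)
    (hx : ∀ g : GL (Fin 2) F, (g : Matrix (Fin 2) (Fin 2) F) = l • !![1, -1; 1, 1] → g ∈ K 2)
    {G : Type*} [Group G] (j : G →* K 2) (hj : Function.Injective j)
    (hr : ∀ g, (j g : GL (Fin 2) F) ∈ SLk (Fin 2) F) [j.range.Normal] {a b : G} (ha : a ^ 4 = 1)
    (hb : b ^ 4 = 1) (hab : b * a * b⁻¹ = a⁻¹) (ha2 : a * a ≠ 1) :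
    ∃ R ≤ K 2, Good (SLk (Fin 2) F) (-1) R ∧ Nat.card R = 2 ^ padicValNat 2 (Nat.card (K 2)) := by
  obtain ⟨S⟩ : Nonempty (Sylow 2 (K 2)) := inferInstance
  let x : GL (Fin 2) F := GeneralLinearGroup.mkOfDetNeZero (l • !![1, -1; 1, 1]) (by
    rw [det_smul, det_fin_two_of]
    exact mul_ne_zero (pow_ne_zero _ hl) (by rwa [show (1 : F) * 1 - -1 * 1 = 2 by ring]))
  have hx1 : x * x ∉ center (GL (Fin 2) F) := by
    rw [mem_center]
    rintro ⟨c, hc⟩
    have := congrFun (congrFun hc 1) 0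
    change ((l • !![1, -1; 1, 1]) * (l • !![1, -1; 1, 1]) : Matrix (Fin 2) (Fin 2) F) 1 0 = _ at this
    simp [mul_apply, hl, ← two_mul, h2] at this
  have hx2 : (x * x) * (x * x) ∈ center (GL (Fin 2) F) := by
    rw [sq_mem_center_iff hx1]
    change trace ((l • !![1, -1; 1, 1]) * (l • !![1, -1; 1, 1]) : Matrix (Fin 2) (Fin 2) F) = 0
    simp [trace_fin_two]
  obtain ⟨k, n, hn, e⟩ := Nat.exists_eq_two_pow_mul_odd (orderOf_pos x).ne'
  obtain ⟨c, hc, -⟩ := Dickson.exists_conj_pair_mem_sylow (p := 2) (x := (⟨x, hx x rfl⟩ : K 2) ^ n)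
    (y := 1) (a := k) (b := 0) (Subtype.ext (by
      rw [← pow_mul, mul_comm, ← e]; exact pow_orderOf_eq_one x)) (by simp) (by simp) S
  obtain ⟨d, hd1, hd2⟩ := Dickson.exists_conj_pair_mem_sylow (p := 2) (x := j a) (y := j b) (a := 2)
    (b := 2) (by rw [← map_pow, show 2 ^ 2 = 4 from rfl, ha, map_one])
    (by rw [← map_pow, show 2 ^ 2 = 4 from rfl, hb, map_one])
    (by rw [← map_inv, ← map_mul, ← map_mul, hab, map_inv]; exact inv_mem (mem_zpowers _)) S
  refine ⟨(S : Subgroup (K 2)).map (K 2).subtype, map_subtype_le _, good_two h2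
    (S.isPGroup'.map _) ⟨⟨-1, hm⟩, mem_sylow_of_pow_pow S (k := 1) (center_le_normalizer _
      (mem_center_iff.2 fun g => Subtype.ext (by simp))) (Subtype.ext (by simp)), rfl⟩
    (mem_map_of_mem _ hc) ?_ (mem_map_of_mem _ hd1) (mem_map_of_mem _ hd2)
    (Normal.conj_mem inferInstance _ (hr a) _) (Normal.conj_mem inferInstance _ (hr b) _) ?_,
    (card_map_of_injective (K 2).subtype_injective).trans (isSyl_sylow S)⟩
  · intro h
    change (c.1 * x ^ n * c.1⁻¹ : GL (Fin 2) F) * (c.1 * x ^ n * c.1⁻¹) ∈ _ at h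
    rw [conj_mul, ← Commute.mul_pow rfl] at h
    obtain ⟨m, rfl⟩ := hn
    have h' : (x * x) ^ (2 * m + 1) ∈ center (GL (Fin 2) F) := by
      simpa [mul_assoc] using Normal.conj_mem inferInstance _ h c.1⁻¹
    rw [pow_succ, pow_mul, sq, mul_mem_cancel_left (pow_mem hx2 m)] at h'
    exact hx1 h'
  · intro h
    rw [← map_mul, ← map_mul, (K 2).subtype_injective.eq_iff, conj_mul, conj_mul, mul_left_inj,
      mul_right_inj, ← map_mul, ← map_mul, hj.eq_iff] at h
    rw [← h, mul_inv_cancel_right, eq_inv_iff_mul_eq_one] at hab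
    exact ha2 hab

variable (hbd : ∀ n m (e : Fin n ⊕ Fin n ≃ Fin m), rx F e (swm (Fin n) F) ∈ K m ∧
    ∀ a ∈ K n, ∀ b ∈ K n, rx F e (bdm (Fin n) F (a, b)) ∈ K m)
  (hv : ∀ k, padicValNat 2 (Nat.card (K (2 ^ (k + 2)))) =
    2 * padicValNat 2 (Nat.card (K (2 ^ (k + 1)))) + 1)
  (h0 : ∃ R ≤ K 2, Good (SLk (Fin 2) F) (-1) R ∧ Nat.card R = 2 ^ padicValNat 2 (Nat.card (K 2)))
include hbd hv h0

theorem exists_good (k : ℕ) : ∃ R ≤ K (2 ^ (k + 1)), Good (SLk (Fin (2 ^ (k + 1))) F) (-1) R ∧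
    Nat.card R = 2 ^ padicValNat 2 (Nat.card (K (2 ^ (k + 1)))) ∧ (k ≠ 0 →
      ∀ g n, Odd n → g ^ n = 1 → (∀ a ∈ R, a ∈ SLk _ F → g * a * g⁻¹ ∈ R) → g ∈ center _) := by
  induction k with
  | zero =>
    obtain ⟨R, h1, h3, h4⟩ := h0
    exact ⟨R, h1, h3, h4, fun h => absurd rfl h⟩
  | succ k ih =>
    obtain ⟨R, h1, h3, h4, -⟩ := ih
    let e : Fin (2 ^ (k + 1)) ⊕ Fin (2 ^ (k + 1)) ≃ Fin (2 ^ (k + 1 + 1)) :=
      finSumFinEquiv.trans (finCongr (by ring))
    have he : Even (Fintype.card (Fin (2 ^ (k + 1)))) := by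
      rw [Fintype.card_fin]; exact (Nat.even_pow.2 ⟨even_two, by omega⟩)
    refine ⟨(wd' h2 he e).W R, (wd' h2 he e).W_le
      (fun a ha b hb => (hbd _ _ e).2 a (h1 ha) b (h1 hb)) (hbd _ _ e).1,
      wd'_m h2 he e ▸ (wd' h2 he e).good_W h3, ?_, fun _ g n hn hg hc =>
        (wd' h2 he e).odd_W h3 hn hg hc⟩
    rw [WD.card_W, h4, hv]; ring

theorem ovN_odd (k : ℕ) {G : Type*} [Group G] (j : G →* K (2 ^ (k + 2)))
    (hj : Function.Injective j)
    (hr : ∀ a : K (2 ^ (k + 2)), a.1 ∈ SLk _ F → a ∈ j.range) : OvN 2 (center G) := by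
  obtain ⟨R, h1, -, h4, h5⟩ := exists_good h2 K hbd hv h0 (k + 1)
  exact ovN_of_vgood h1 h4 (h5 (by omega)) j hj hr

end Odd

theorem exists_quat {L : Type*} [Field L] [Finite L] (h2 : (2 : L) ≠ 0) :
    ∃ a b : SpecialLinearGroup (Fin 2) L, a ^ 4 = 1 ∧ b ^ 4 = 1 ∧ b * a * b⁻¹ = a⁻¹ ∧
      a * a ≠ 1 := by
  obtain ⟨p, hp⟩ := CharP.exists L
  have : NeZero p := ⟨CharP.char_ne_zero_of_finite L p⟩
  obtain ⟨u, v, h⟩ := CharP.sq_add_sq L p (-1)
  let a : SpecialLinearGroup (Fin 2) L := ⟨!![0, -1; 1, 0], by simp⟩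
  let b : SpecialLinearGroup (Fin 2) L := ⟨!![u, v; v, -u], by
    rw [det_fin_two_of]; push_cast at h; linear_combination -h⟩
  have ha : a * a = -1 := Subtype.ext (by
    rw [Matrix.SpecialLinearGroup.coe_mul]
    ext i j; fin_cases i <;> fin_cases j <;> simp [a])
  have hb : b * b = -1 := Subtype.ext (by
    push_cast at h
    rw [Matrix.SpecialLinearGroup.coe_mul]
    ext i j; fin_cases i <;> fin_cases j <;> simp [b] <;> first | ring1 | linear_combination h)
  refine ⟨a, b, ?_, ?_, ?_, ha ▸ Dickson.neg_one_ne_one_SL h2⟩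
  · rw [show 4 = 2 * 2 from rfl, pow_mul, sq a, ha]; simp
  · rw [show 4 = 2 * 2 from rfl, pow_mul, sq b, hb]; simp
  · rw [mul_inv_eq_iff_eq_mul, eq_inv_mul_iff_mul_eq]
    refine Subtype.ext ?_
    rw [Matrix.SpecialLinearGroup.coe_mul, Matrix.SpecialLinearGroup.coe_mul]
    ext i j; fin_cases i <;> fin_cases j <;> simp [a, b]

theorem val_two_pow_factorial (k : ℕ) :
    padicValNat 2 (2 ^ (k + 1)).factorial = 2 * padicValNat 2 (2 ^ k).factorial + 1 := by
  have h : ∀ k, padicValNat 2 (2 ^ k).factorial + 1 = 2 ^ k := fun k => by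
    induction k with
    | zero => simp
    | succ k ih => rw [pow_succ', padicValNat_factorial_mul]; omega
  have h1 := h k
  rw [pow_succ', padicValNat_factorial_mul]
  omega

theorem odd_card (h2 : (2 : F) ≠ 0) : Odd (Nat.card F) := by
  have := Fintype.ofFinite F
  rw [Nat.card_eq_fintype_card, Nat.odd_iff]
  exact FiniteField.odd_card_of_char_ne_two (fun h => h2 (by
    have := ringChar.Nat.cast_ringChar (R := F)
    rwa [h] at this))

theorem ovN_SL_odd (h2 : (2 : F) ≠ 0) (k : ℕ) :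
    OvN 2 (center (SpecialLinearGroup (Fin (2 ^ (k + 2))) F)) := by
  have ho := odd_card h2
  obtain ⟨a, b, h⟩ := exists_quat h2
  have hr : ∀ n, ∀ a : (⊤ : Subgroup (GL (Fin n) F)), a.1 ∈ SLk _ F →
      a ∈ (SpecialLinearGroup.toGL.codRestrict ⊤ fun _ => mem_top _).range :=
    fun n a ha => ⟨⟨a.1.1, mem_SLk.1 ha⟩, Subtype.ext (Units.ext rfl)⟩
  have hj : ∀ n, Function.Injective ((SpecialLinearGroup.toGL : _ →* GL (Fin n) F).codRestrict ⊤
      fun _ => mem_top _) := fun n =>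
    (MonoidHom.injective_codRestrict _ _ _).2 SpecialLinearGroup.toGL_injective
  have : ((SpecialLinearGroup.toGL : _ →* GL (Fin 2) F).codRestrict ⊤
      fun _ => mem_top _).range.Normal := ⟨by
    rintro _ ⟨g, rfl⟩ c
    exact hr 2 _ (Normal.conj_mem inferInstance (SpecialLinearGroup.toGL g) (mem_SLk.2 g.2) _)⟩
  refine ovN_odd h2 (fun _ => ⊤) (fun _ _ _ => ⟨mem_top _, fun _ _ _ _ => mem_top _⟩)
    (fun k => ?_) (exists_good_two h2 (fun _ => ⊤) (mem_top _) one_ne_zero (fun _ _ => mem_top _) _ (hj 2)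
      (fun g => mem_SLk.2 g.2) h.1 h.2.1 h.2.2.1 h.2.2.2) k _ (hj _) (hr _)
  have key : ∀ m, padicValNat 2 (Nat.card (⊤ : Subgroup (GL (Fin (2 * m)) F))) =
      m * padicValNat 2 (Nat.card F - 1) + m * padicValNat 2 (Nat.card F ^ 2 - 1) +
        padicValNat 2 m.factorial := fun m => by
    rw [card_top, val_card_GL ho.not_two_dvd_nat, val_prod_two ho Finite.one_lt_card,
      show 2 * m / 2 = m by omega, show 2 * m - m = m by omega]
  rw [pow_succ' 2 (k + 1), key, val_two_pow_factorial, pow_succ' 2 k, key]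
  ring

theorem ovN_SL_even (h2 : (2 : F) = 0) (n : ℕ) :
    OvN 2 (center (SpecialLinearGroup (Fin (n + 1)) F)) := by
  have : CharP F 2 := CharTwo.of_one_ne_zero_of_two_eq_zero one_ne_zero h2
  refine (ovN_of_split (GLn.glSplit n F 2).toSplit0 fun a ha b hb => ?_).comap _
    SpecialLinearGroup.toGL_injective (GLn.not_dvd_index_range_toGL F 2) _
  change a ∈ (GLn.glTits n F).H at ha
  change b ∈ (GLn.glTits n F).H at hb
  rw [GLn.glTits_H, GLn.mem_dg] at ha hb
  refine Units.ext ?_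
  rw [Units.val_mul, Units.val_mul, ← (show IsDiag _ from ha).diagonal_diag,
    ← (show IsDiag _ from hb).diagonal_diag, diagonal_mul_diagonal, diagonal_mul_diagonal]
  simp only [mul_comm]

section U

variable {q : ℕ} [U.UF F q]

theorem val_card_GU (ho : Odd q) (m : ℕ) : padicValNat 2 (Nat.card (GU (2 * m) F q)) =
    m * padicValNat 2 (q + 1) + (m * padicValNat 2 (q ^ 2 - 1) + padicValNat 2 m.factorial) := by
  have h1 : 1 < q := U.two_le_q F q
  have hne : ∀ n, ∏ i ∈ Finset.range n,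
      (if Even i then q ^ (i + 1) + 1 else q ^ (i + 1) - 1) ≠ 0 := fun n =>
    Finset.prod_ne_zero_iff.2 fun i _ => by
      split_ifs
      exacts [by omega, pow_succ_sub_one_ne h1 i]
  rw [U.card_GU, val_pow_mul ho.not_two_dvd_nat _ (hne _), ← val_prod_sq ho h1]
  induction m with
  | zero => simp
  | succ m ih =>
    have a1 : q ^ (2 * m + 1) + 1 ≠ 0 := by omega
    have a2 := pow_succ_sub_one_ne h1 (2 * m + 1)
    have a3 : padicValNat 2 (q ^ (2 * m + 1) + 1) = padicValNat 2 (q + 1) := by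
      have key : ∀ r : ℕ, 1 < r → padicValNat 2 (r ^ 2 - 1) =
          padicValNat 2 (r + 1) + padicValNat 2 (r - 1) := fun r hr => by
        rw [show r ^ 2 - 1 = (r + 1) * (r - 1) by simpa using Nat.sq_sub_sq r 1,
          padicValNat.mul (by omega) (by omega)]
      have b1 := key q h1
      have b2 := key (q ^ (2 * m + 1)) (Nat.one_lt_pow (by omega) h1)
      rw [← pow_mul, mul_comm, pow_mul, val_pow_odd (i := 2 * m + 1) ho.pow
        (Nat.one_lt_pow (by omega) h1) (by omega), val_pow_odd (i := 2 * m + 1) ho h1 (by omega)] at b2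
      omega
    have a4 : ∏ i ∈ Finset.range m, (q ^ (2 * (i + 1)) - 1) ≠ 0 :=
      Finset.prod_ne_zero_iff.2 fun i _ => pow_succ_sub_one_ne h1 (2 * i + 1)
    rw [mul_add_one, Finset.prod_range_succ, Finset.prod_range_succ, Finset.prod_range_succ,
      if_pos (even_two_mul m), if_neg (by simp), padicValNat.mul (mul_ne_zero (hne _) a1) a2,
      padicValNat.mul (hne _) a1, ih, show 2 * (m + 1) = 2 * m + 1 + 1 from rfl,
      padicValNat.mul a4 a2, a3]
    ring

theorem ovN_SU_odd (h2 : (2 : F) ≠ 0) (k : ℕ) : OvN 2 (center (SU (2 ^ (k + 2)) F q)) := by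
  have ho : Odd q := by
    have := odd_card h2
    rw [U.UF.card_eq (q := q)] at this
    exact (Nat.odd_pow_iff two_ne_zero).1 this
  obtain ⟨L, _, _, hL⟩ : ∃ (L : Type) (_ : Field L) (_ : Finite L), Nat.card L = q := by
    obtain ⟨p, hp⟩ := CharP.exists F
    have := Fintype.ofFinite F
    obtain ⟨n, hp', hn⟩ := FiniteField.card F p
    rw [← Nat.card_eq_fintype_card, U.UF.card_eq (q := q)] at hn
    obtain ⟨m, -, rfl⟩ := (Nat.dvd_prime_pow hp').1 (hn ▸ dvd_pow_self q two_ne_zero)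
    have : Fact p.Prime := ⟨hp'⟩
    refine ⟨GaloisField p m, inferInstance, inferInstance, GaloisField.card p m ?_⟩
    rintro rfl
    have := U.two_le_q F (p ^ 0)
    simp at this
  obtain ⟨φ⟩ := U.nonempty_SU2_equiv (F := F) hL
  obtain ⟨a, b, h⟩ := exists_quat (L := L) (JTW.PA.two_ne_of_odd (hL ▸ Nat.odd_iff.1 ho))
  obtain ⟨l, hl⟩ := U.exists_norm_eq (F := F) (q := q) (μ := 2⁻¹) (by rw [map_inv₀, map_ofNat])
  have hr : ∀ n, ∀ a : GU n F q, a.1 ∈ SLk _ F → a ∈ (U.toGU : SU n F q →* _).range :=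
    fun n a ha => U.range_toGU (n := n) (F := F) (q := q) ▸ ha
  have : (U.toGU : SU 2 F q →* GU 2 F q).range.Normal := by rw [U.range_toGU]; infer_instance
  refine ovN_odd h2 (fun n => GU n F q) (fun n m e => ⟨?_, fun a ha b hb => ?_⟩)
    (fun k => ?_) (exists_good_two h2 (fun n => GU n F q) ?_ (l := l) (by rintro rfl; exact inv_ne_zero h2 (by simpa using hl.symm))
      (fun g hg => ?_) U.toGU U.toGU_injective (fun g => mem_SLk.2 g.1.2) (a := φ.symm a)
      (b := φ.symm b) (by rw [← map_pow, h.1, map_one]) (by rw [← map_pow, h.2.1, map_one])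
      (by rw [← map_inv, ← map_mul, ← map_mul, h.2.2.1, map_inv])
      (by rw [← map_mul, Ne, map_eq_one_iff _ φ.symm.injective]; exact h.2.2.2))
    k U.toGU U.toGU_injective (hr _)
  · rw [U.mem_GU_iff, U.pres_iff, rx_coe, transpose_submatrix, ← submatrix_map,
      submatrix_mul_equiv, swm_coe, fromBlocks_transpose, fromBlocks_map, fromBlocks_multiply]
    simp
  · rw [U.mem_GU_iff, U.pres_iff] at ha hb
    rw [U.mem_GU_iff, U.pres_iff, rx_coe, transpose_submatrix, ← submatrix_map,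
      submatrix_mul_equiv, bdm_coe, fromBlocks_transpose, fromBlocks_map, fromBlocks_multiply]
    simp [ha, hb]
  · rw [pow_succ' 2 (k + 1), val_card_GU ho, val_two_pow_factorial, pow_succ' 2 k, val_card_GU ho]
    ring
  · rw [U.mem_GU_iff, U.pres_iff]
    simp [Matrix.map_neg]
  · rw [U.mem_GU_iff, U.pres_iff, hg]
    have : l * U.conj F q l * 2 = 1 := by rw [hl, inv_mul_cancel₀ h2]
    ext i j; fin_cases i <;> fin_cases j <;> simp [mul_apply] <;> linear_combination this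

theorem eq_smul_of_aniso {V : Type*} [AddCommGroup V] [Module F V]
    {B : V →ₛₗ[U.conj F q] V →ₗ[F] F} (h : IsHermSpace q B) {W : Submodule F V}
    (hW : ∀ u ∈ W, B u u = 0 → u = 0) {u v : V} (hu : u ∈ W) (hv : v ∈ W) (h0 : u ≠ 0) :
    ∃ c : F, v = c • u := by
  have h1 : B u u ≠ 0 := mt (hW u hu) h0
  refine ⟨B u v / B u u, sub_eq_zero.1 ?_⟩
  have hv' : v - (B u v / B u u) • u ∈ W := sub_mem hv (W.smul_mem _ hu)
  have h2 : B u (v - (B u v / B u u) • u) = 0 := by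
    rw [map_sub, map_smul, smul_eq_mul, div_mul_cancel₀ _ h1, sub_self]
  generalize v - (B u v / B u u) • u = w at hv' h2
  have h3 : B w u = 0 := by rw [← h.isSymm.eq, h2, map_zero]
  obtain ⟨x, hx⟩ := U.exists_norm_eq (F := F) (q := q) (μ := -B w w / B u u)
    (by rw [map_div₀, map_neg, h.isSymm.eq, h.isSymm.eq])
  have h4 := hW (x • u + w) (add_mem (W.smul_mem _ hu) hv') (by
    simp only [map_add, map_smul, LinearMap.map_smulₛₗ, LinearMap.add_apply, LinearMap.smul_apply,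
      smul_eq_mul, h2, h3, mul_zero, add_zero, zero_add]
    rw [← mul_assoc, hx, div_mul_cancel₀ _ h1, neg_add_cancel])
  have h5 := congrArg (B u) h4
  rw [map_add, map_smul, h2, add_zero, map_zero, smul_eq_mul, mul_eq_zero] at h5
  rwa [h5.resolve_right h1, zero_smul, zero_add] at h4

theorem ovN_SU_even (h2 : (2 : F) = 0) (n : ℕ) : OvN 2 (center (SU n F q)) := by
  have : CharP F 2 := CharTwo.of_one_ne_zero_of_two_eq_zero one_ne_zero h2
  obtain ⟨m, f, D⟩ := FB.exists_MF (isHermSpace_hermB n F q)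
  have ht := Or.inl (b := ∃ u ∈ FB.V0 (hermB n F q) f, u ≠ 0) (U.exists_trace_zero F q)
  have h1 := ovN_of_split (D.splitB ht 2 D.hm).toSplit0 fun a ha b hb => by
    change a ∈ (D.titsB ht).H at ha
    change b ∈ (D.titsB ht).H at hb
    rw [D.titsB_H] at ha hb
    obtain ⟨ha, w, hw⟩ := ha
    obtain ⟨hb, w', hw'⟩ := hb
    obtain rfl := D.eq_of_acts FB.acts_one hw (by rw [inv_one, one_mul]; exact ha)
    obtain rfl := D.eq_of_acts FB.acts_one hw' (by rw [inv_one, one_mul]; exact hb)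
    have key : ∀ v, (∃ c : F, a.1 v = c • v) → (∃ c : F, b.1 v = c • v) →
        a.1 (b.1 v) = b.1 (a.1 v) := by
      rintro v ⟨c, hc⟩ ⟨d, hd⟩
      rw [hc, hd, map_smul, map_smul, hc, hd, smul_comm]
    refine Subtype.ext (LinearEquiv.ext fun v => ?_)
    change a.1 (b.1 v) = b.1 (a.1 v)
    rw [FB.eq_sum_add_p0 (B := hermB n F q) f v]
    simp only [map_add, map_sum, map_smul]
    congr 1
    · exact Finset.sum_congr rfl fun k _ => by
        rw [key _ ((hw k).imp fun _ h => h.2) ((hw' k).imp fun _ h => h.2)]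
    · have hu := D.hf.p0_mem v
      by_cases h0 : FB.p0 (hermB n F q) f v = 0
      · simp [h0]
      · exact key _ (eq_smul_of_aniso D.h D.hm hu (hw.map_V0 D.hf hu) h0)
          (eq_smul_of_aniso D.h D.hm hu (hw'.map_V0 D.hf hu) h0)
  refine (h1.comap (guEquiv n F q).toMonoidHom (guEquiv n F q).injective (by
    rw [MonoidHom.range_eq_top.2 (guEquiv n F q).surjective, index_top]; decide) ⊥).comap U.toGU
      U.toGU_injective (fun h => ?_) _
  rw [U.range_toGU, Subgroup.index_ker] at h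
  have := Fintype.ofFinite F
  have h1 := h.trans (Subgroup.card_subgroup_dvd_card _)
  rw [Nat.card_units] at h1
  obtain ⟨k, hp, hk⟩ := FiniteField.card F 2
  have h2 : 2 ∣ Nat.card F := by
    rw [Nat.card_eq_fintype_card, hk]
    exact dvd_pow_self 2 k.ne_zero
  have : 0 < Nat.card F := Nat.card_pos
  omega

end U

end Cfsg.Agent.Class.Pron
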